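import Cfsg.Agent.H520.FC.CB

/-!
# `F₄(q)`: the `p`-singular elements are in maximal parabolic subgroups (S2452, box (0))

* `exists_par_full` : a conjugate of `g` is `u s`, `1 ≠ u ∈ V_J` of order a power of `p`, `s` of order prime to `p`,
  `C(u) ≤ P_J`;
* `exists_par` : a conjugate of `g` is in one of the four maximal parabolic subgroups.
-/

set_option autoImplicit false
set_option linter.unusedSectionVars false

namespace Cfsg.Agent.H744.FR

open Subgroup CoxeterSystem Cfsg.Agent.ChevalleyStructure.CoxeterGeom Cfsg.Agent.Tits.Core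
  Cfsg.Agent.Tits.Exchange Cfsg.Agent.Nodes.Reps Cfsg.Agent.Nodes.BNOf Cfsg.Agent.Nodes.StabComb
  Cfsg.Agent.Nodes.Bruhat Cfsg.Agent.Nodes.OppDec Cfsg.Agent.Nodes.LeviDec Cfsg.Agent.Nodes.NormX
  Cfsg.Agent.Nodes.Coroot Cfsg.Agent.Nodes.RGDChev Cfsg.Agent.KFacts.RgdPar Cfsg.Agent.KFacts.RgdTI
  Cfsg.Agent.KFacts.RgdCent Cfsg.Agent.KFacts.RgdChevCoord Cfsg.Agent.Nodes.ChevCls
  Cfsg.Agent.OddHalf.NI.ModelChev Cfsg.Agent.H225.PPow
open Cfsg.Lie Cfsg.Agent.ChevalleyStructure Cfsg.Agent.ChevalleyStructure.Elts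
  Cfsg.Agent.ChevalleyStructure.RootVec Cfsg.Agent.ChevalleyStructure.NPerm
  Cfsg.Agent.ChevalleyStructure.CoxeterGeomTypes
open Cfsg.Agent.H701.F43.Cent (hF cF nroots finW)
open Cfsg.Agent.KFacts.RgdBorelTits Cfsg.Agent.KFacts.RgdFilt
open Cfsg.Agent.H520.FC (PK VK XT)

universe u

variable {K : Type u} [Field K] [Finite K] {p : ℕ} [Fact p.Prime] [CharP K p]

/-- a `p`-element `u ≠ 1` -/
theorem exists_par_unip {u : ↥(chevF4.group K)} (hu1 : u ≠ 1) {e : ℕ} (hue : u ^ p ^ e = 1) :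
    ∃ (x : ↥(chevF4.group K)) (J : Set (Fin 4)), J ≠ Set.univ ∧ x * u * x⁻¹ ∈ VK K J ∧
      centralizer ({x * u * x⁻¹} : Set ↥(chevF4.group K)) ≤ PK K J := by
  have hW := finite_W hF cF
  have hfin : Finite ↥(chevF4.group K) := inferInstance
  have hFil := KFacts.RgdFiltChev.filt (K := K) hF cF p
  have hG := KFacts.RgdFilt.GG_eq_top (T := TT chevF4 K) (G1_eq_top hF (K := K) cF)
  have hK : IsPGroup p (zpowers u) := by
    rintro ⟨y, n, rfl⟩
    refine ⟨e, Subtype.ext ?_⟩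
    show (u ^ n) ^ p ^ e = 1
    rw [← zpow_natCast, ← zpow_mul, mul_comm, zpow_mul, zpow_natCast, hue, one_zpow]
  obtain ⟨g, J, hJ, hle, hN⟩ := borel_tits hFil hG hK (by rw [Ne, zpowers_eq_bot]; exact hu1)
  obtain ⟨v, hv, hvu⟩ : ∃ v ∈ VK K J, g * v * g⁻¹ = u := by
    obtain ⟨v, hv, hvu⟩ := hle (mem_zpowers u)
    exact ⟨v, hv, hvu⟩
  have hvu' : g⁻¹ * u * g⁻¹⁻¹ = v := by rw [← hvu]; group
  refine ⟨g⁻¹, J, hJ, by rw [hvu']; exact hv, ?_⟩
  rw [hvu']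
  intro x hx
  have h1 : g * x * g⁻¹ ∈ cj g (PK K J) := by
    apply hN
    refine centralizer_le_normalizer _ ?_
    rw [mem_centralizer_iff]
    rintro y ⟨n, rfl⟩
    have h2 : Commute u (g * x * g⁻¹) := by
      have h3 := mem_centralizer_singleton_iff.1 hx
      show u * (g * x * g⁻¹) = g * x * g⁻¹ * u
      rw [← hvu]
      calc g * v * g⁻¹ * (g * x * g⁻¹) = g * (v * x) * g⁻¹ := by group
        _ = g * (x * v) * g⁻¹ := by rw [h3]
        _ = g * x * g⁻¹ * (g * v * g⁻¹) := by group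
    exact h2.zpow_left n
  obtain ⟨y, hy, hyx⟩ := h1
  have h2 : y = x := (MulAut.conj g).injective hyx
  exact h2 ▸ hy

/-- **Borel–Tits for a `p`-singular element.** -/
theorem exists_par_full {g : ↥(chevF4.group K)} (hg : p ∣ orderOf g) :
    ∃ (x : ↥(chevF4.group K)) (J : Set (Fin 4)) (u s : ↥(chevF4.group K)) (e i j : ℕ), J ≠ Set.univ ∧
      x * g * x⁻¹ = u * s ∧ u * s = s * u ∧ u ≠ 1 ∧ u ^ p ^ e = 1 ∧ (orderOf s).Coprime p ∧ u ∈ VK K J ∧
      centralizer ({u} : Set ↥(chevF4.group K)) ≤ PK K J ∧ x * g * x⁻¹ ∈ PK K J ∧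
      u = (x * g * x⁻¹) ^ i ∧ s = (x * g * x⁻¹) ^ j := by
  obtain ⟨i, j, k, m, hij, hi, hj, hm⟩ := Cfsg.Agent.H548.CosetMod.exists_parts p g
  have hus : g ^ i * g ^ j = g ^ j * g ^ i := by rw [← pow_add, ← pow_add, add_comm]
  have hu1 : g ^ i ≠ 1 := by
    intro hcon
    rw [hcon, one_mul] at hij
    rw [hij] at hg
    have h1 : p ∣ m := hg.trans (orderOf_dvd_of_pow_eq_one hj)
    exact (Nat.Prime.coprime_iff_not_dvd Fact.out).1 hm h1
  obtain ⟨x, J, hJ, hV, hC⟩ := exists_par_unip hu1 hi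
  have hp : x * g * x⁻¹ ∈ centralizer ({x * g ^ i * x⁻¹} : Set ↥(chevF4.group K)) := by
    rw [mem_centralizer_singleton_iff, ← conj_pow]
    exact (Commute.refl _).pow_right i
  refine ⟨x, J, x * g ^ i * x⁻¹, x * g ^ j * x⁻¹, k, i, j, hJ, ?_, ?_, ?_, ?_, ?_, hV, hC, hC hp, ?_, ?_⟩
  · nth_rewrite 1 [hij]
    group
  · rw [← conj_pow, ← conj_pow, ← pow_add, ← pow_add, add_comm]
  · intro hcon
    apply hu1
    have : g ^ i = x⁻¹ * (x * g ^ i * x⁻¹) * x := by group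
    rw [this, hcon]
    group
  · rw [conj_pow, hi]
    group
  · have h2 : orderOf (x * g ^ j * x⁻¹) ∣ m := by
      apply orderOf_dvd_of_pow_eq_one
      rw [conj_pow, hj]
      group
    exact Nat.Coprime.coprime_dvd_left h2 hm.symm
  · rw [conj_pow]
  · rw [conj_pow]

/-- **`p`-singular elements are in maximal parabolic subgroups.** -/
theorem exists_par {g : ↥(chevF4.group K)} (hg : p ∣ orderOf g) :
    ∃ (x : ↥(chevF4.group K)) (i : Fin 4), x * g * x⁻¹ ∈ PK K {k | k ≠ i} := by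
  obtain ⟨x, J, u, s, e, -, -, hJ, -, -, -, -, -, -, -, hP, -, -⟩ := exists_par_full (K := K) (p := p) hg
  obtain ⟨i, hi⟩ := (Set.ne_univ_iff_exists_notMem J).1 hJ
  refine ⟨x, i, Cfsg.Agent.H744.FC.PK_mono (fun k hk => ?_) hP⟩
  rintro rfl
  exact hi hk

end Cfsg.Agent.H744.FR
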